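import Mathlib
import Cfsg.Agent.Lib.NilpotentCoprime
import Cfsg.Agent.H524.ClassSize
import Cfsg.Agent.S0007

/-!
# Counting elements by class size

* `exists_equiv`: equal numbers of classes of each size give a class size preserving bijection.
* `exists_prod`: a finite nilpotent group is a direct product of a `p`-group and a `p'`-group.
-/

set_option autoImplicit false

namespace Cfsg.Agent.H683.ClassCount

open Subgroup
open scoped Pointwise

/-- The size of the conjugacy class of `x`. -/
noncomputable def csz {G : Type*} [Group G] (x : G) : ℕ := (centralizer ({x} : Set G)).index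

theorem csz_mulEquiv {G H : Type*} [Group G] [Group H] (e : G ≃* H) (x : G) :
    csz (e x) = csz x := by
  unfold csz
  have h : (centralizer ({e x} : Set H)).comap e.toMonoidHom = centralizer ({x} : Set G) := by
    ext g
    rw [mem_comap, mem_centralizer_singleton_iff, mem_centralizer_singleton_iff]
    change e g * e x = e x * e g ↔ _
    rw [← map_mul, ← map_mul, e.injective.eq_iff]
  rw [← h]
  exact (Subgroup.index_comap_of_surjective _ e.surjective).symm

theorem csz_prod {G H : Type*} [Group G] [Group H] (x : G) (y : H) :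
    csz ((x, y) : G × H) = csz x * csz y := by
  unfold csz
  rw [← Subgroup.index_prod]
  congr 1
  ext ⟨g, h⟩
  simp only [mem_centralizer_singleton_iff, Subgroup.mem_prod, Prod.mk_mul_mk, Prod.mk.injEq]

theorem csz_eq_one_iff {G : Type*} [Group G] (x : G) : csz x = 1 ↔ x ∈ center G := by
  unfold csz
  rw [Subgroup.index_eq_one, Subgroup.eq_top_iff']
  simp only [mem_centralizer_singleton_iff, Subgroup.mem_center_iff]

theorem card_carrier {G : Type*} [Group G] [Finite G] (x : G) :
    Nat.card (ConjClasses.mk x).carrier = csz x := by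
  classical
  have := Fintype.ofFinite G
  unfold csz
  have h1 : (ConjClasses.mk x).carrier = MulAction.orbit (ConjAct G) x := by
    ext y
    rw [ConjClasses.mem_carrier_iff_mk_eq, ConjAct.mem_orbit_conjAct, ConjClasses.mk_eq_mk_iff_isConj]
  rw [h1, Nat.card_congr (MulAction.orbitEquivQuotientStabilizer (ConjAct G) x)]
  change (MulAction.stabilizer (ConjAct G) x).index = _
  rw [Subgroup.centralizer_eq_comap_stabilizer]
  exact (Subgroup.index_comap_of_surjective _ ConjAct.toConjAct.surjective).symm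

/-- Number of elements with class size `k`. -/
theorem card_csz_eq {G : Type*} [Group G] [Finite G] (k : ℕ) :
    Nat.card {x : G // csz x = k} = Nat.card {C : ConjClasses G // Nat.card C.carrier = k} * k := by
  classical
  have := Fintype.ofFinite G
  have : Finite (ConjClasses G) := Quotient.finite _
  have := Fintype.ofFinite {C : ConjClasses G // Nat.card C.carrier = k}
  let e : {x : G // csz x = k} ≃
      Σ C : {C : ConjClasses G // Nat.card C.carrier = k}, C.1.carrier :=
    { toFun := fun x => ⟨⟨ConjClasses.mk x.1, by rw [card_carrier, x.2]⟩, ⟨x.1, ConjClasses.mem_carrier_mk⟩⟩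
      invFun := fun y => ⟨y.2.1, by
        rw [← card_carrier, ConjClasses.mem_carrier_iff_mk_eq.1 y.2.2, y.1.2]⟩
      left_inv := fun x => rfl
      right_inv := by
        rintro ⟨⟨C, hC⟩, ⟨y, hy⟩⟩
        have h := ConjClasses.mem_carrier_iff_mk_eq.1 hy
        subst h
        rfl }
  rw [Nat.card_congr e, Nat.card_sigma, Finset.sum_congr rfl (fun C _ => C.2), Finset.sum_const,
    Finset.card_univ, ← Nat.card_eq_fintype_card, smul_eq_mul]

/-- If the numbers of classes of each size agree, there is a bijection preserving class sizes. -/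
theorem exists_equiv {G H : Type*} [Group G] [Finite G] [Group H] [Finite H]
    (h : ∀ k : ℕ, Nat.card {C : ConjClasses G // Nat.card C.carrier = k} =
      Nat.card {C : ConjClasses H // Nat.card C.carrier = k}) :
    ∃ φ : G ≃ H, ∀ x, csz (φ x) = csz x := by
  have h1 : ∀ k : ℕ, Nonempty ({x : G // csz x = k} ≃ {x : H // csz x = k}) := by
    intro k
    rw [← Finite.card_eq, card_csz_eq, card_csz_eq, h]
  let e := fun k => (h1 k).some
  refine ⟨(Equiv.sigmaFiberEquiv (fun x : G => csz x)).symm.trans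
    ((Equiv.sigmaCongrRight e).trans (Equiv.sigmaFiberEquiv (fun x : H => csz x))), fun x => ?_⟩
  exact (e (csz x) ⟨x, rfl⟩).2

/-- A finite nilpotent group is the direct product of a `p`-group and a `p'`-group. -/
theorem exists_prod {H : Type*} [Group H] [Finite H] (hH : Group.IsNilpotent H) (p : ℕ)
    [hp : Fact p.Prime] :
    ∃ P K : Subgroup H, IsPGroup p P ∧ (Nat.card K).Coprime p ∧ Nonempty (H ≃* P × K) := by
  let P : Sylow p H := default
  have hPn : (P : Subgroup H).Normal :=
    Sylow.normal_of_normalizerCondition Group.normalizerCondition_of_isNilpotent P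
  have hcop : Nat.Coprime (Nat.card (P : Subgroup H)) (P : Subgroup H).index :=
    P.card_coprime_index
  obtain ⟨K, hK⟩ := Subgroup.exists_right_complement'_of_coprime hcop
  have hKcard : (Nat.card K).Coprime p := by
    have h1 : (P : Subgroup H).index = Nat.card K := hK.symm.index_eq_card
    rw [← h1]
    exact ((Nat.Prime.coprime_iff_not_dvd hp.out).2 P.not_dvd_index).symm
  have comm : ∀ (a : (P : Subgroup H)) (b : K),
      Commute ((P : Subgroup H).subtype a) (K.subtype b) := by
    intro a b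
    refine Cfsg.Agent.Lib.NilpotentCoprime.commute_of_coprime_orderOf ?_
    have h1 : orderOf ((P : Subgroup H).subtype a) = orderOf a :=
      orderOf_injective _ (P : Subgroup H).subtype_injective a
    have h2 : orderOf (K.subtype b) = orderOf b := orderOf_injective _ K.subtype_injective b
    rw [h1, h2]
    obtain ⟨k, hk⟩ := IsPGroup.iff_orderOf.1 P.isPGroup' a
    rw [hk]
    exact (Nat.Coprime.coprime_dvd_left (orderOf_dvd_natCard b) hKcard).symm.pow_left k
  refine ⟨P, K, P.isPGroup', hKcard, ⟨(MulEquiv.ofBijective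
    (MonoidHom.noncommCoprod (P : Subgroup H).subtype K.subtype comm) ?_).symm⟩⟩
  exact hK

theorem csz_dvd_card {G : Type*} [Group G] [Finite G] (x : G) : csz x ∣ Nat.card G :=
  Subgroup.index_dvd_card _

theorem coprime_pow {p n k : ℕ} (hn : n.Coprime p) (h : n = p ^ k) : n = 1 := by
  rw [h] at hn ⊢
  exact (Nat.coprime_self _).1 (Nat.Coprime.pow_right k hn)

/-- The counts in a nilpotent group. -/
theorem counts {H : Type*} [Group H] [Finite H] (hH : Group.IsNilpotent H) (p : ℕ)
    [hp : Fact p.Prime] :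
    ∃ a b m n : ℕ, m.Coprime p ∧ n.Coprime p ∧ Nat.card H = p ^ a * m ∧
      Nat.card (center H) = p ^ b * n ∧
      Nat.card {x : H // ¬ p ∣ csz x} = p ^ b * m ∧
      Nat.card {x : H // ∃ k, csz x = p ^ k} = p ^ a * n := by
  obtain ⟨P, K, hP, hK, ⟨e⟩⟩ := exists_prod hH p
  obtain ⟨a, ha⟩ := IsPGroup.iff_card.1 hP
  obtain ⟨b, hb⟩ := IsPGroup.iff_card.1 (hP.to_subgroup (center P))
  have hcK : (Nat.card (center K)).Coprime p :=
    Nat.Coprime.coprime_dvd_left (Subgroup.card_subgroup_dvd_card _) hK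
  have hpz : ∀ x : P, ∃ k, csz x = p ^ k := by
    intro x
    have h1 := csz_dvd_card x
    rw [ha] at h1
    obtain ⟨k, -, hk⟩ := (Nat.dvd_prime_pow hp.out).1 h1
    exact ⟨k, hk⟩
  have hkz : ∀ y : K, (csz y).Coprime p := fun y =>
    Nat.Coprime.coprime_dvd_left (csz_dvd_card y) hK
  have hcs : ∀ x : H, csz x = csz (e x).1 * csz (e x).2 := by
    intro x
    rw [← csz_prod, ← csz_mulEquiv e x]
  have hX : ∀ x : H, ¬ p ∣ csz x ↔ (e x).1 ∈ center P := by
    intro x
    rw [hcs, ← csz_eq_one_iff]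
    constructor
    · intro h
      obtain ⟨k, hk⟩ := hpz (e x).1
      rcases Nat.eq_zero_or_pos k with rfl | hk0
      · rw [hk, pow_zero]
      · exfalso
        apply h
        rw [hk]
        exact (dvd_pow_self p hk0.ne').mul_right _
    · intro h hd
      rw [h, one_mul] at hd
      exact ((Nat.Prime.coprime_iff_not_dvd hp.out).1 (hkz (e x).2).symm) hd
  have hT : ∀ x : H, (∃ k, csz x = p ^ k) ↔ (e x).2 ∈ center K := by
    intro x
    rw [hcs, ← csz_eq_one_iff]
    constructor
    · rintro ⟨k, hk⟩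
      have h1 : csz (e x).2 ∣ p ^ k := by rw [← hk]; exact dvd_mul_left _ _
      obtain ⟨j, -, hj⟩ := (Nat.dvd_prime_pow hp.out).1 h1
      exact coprime_pow (hkz _) hj
    · intro h
      rw [h, mul_one]
      exact hpz _
  refine ⟨a, b, Nat.card K, Nat.card (center K), hK, hcK, ?_, ?_, ?_, ?_⟩
  · rw [Nat.card_congr e.toEquiv, Nat.card_prod, ha]
  · rw [← hb, ← Nat.card_prod]
    refine Nat.card_congr ((e.toEquiv.subtypeEquiv
      (q := fun y : P × K => y.1 ∈ center P ∧ y.2 ∈ center K) (fun x => ?_)).trans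
        Equiv.subtypeProdEquivProd)
    rw [← csz_eq_one_iff, ← csz_eq_one_iff, ← csz_eq_one_iff, hcs, mul_eq_one]
    rfl
  · rw [← hb, ← Nat.card_prod]
    refine Nat.card_congr ((e.toEquiv.subtypeEquiv
      (q := fun y : P × K => y.1 ∈ center P ∧ True) (fun x => ?_)).trans
        (Equiv.subtypeProdEquivProd.trans (Equiv.prodCongr (Equiv.refl _)
          (Equiv.subtypeUnivEquiv (fun _ => trivial)))))
    rw [hX, and_true]
    rfl
  · rw [← ha, ← Nat.card_prod]
    refine Nat.card_congr ((e.toEquiv.subtypeEquiv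
      (q := fun y : P × K => True ∧ y.2 ∈ center K) (fun x => ?_)).trans
        (Equiv.subtypeProdEquivProd.trans (Equiv.prodCongr
          (Equiv.subtypeUnivEquiv (fun _ => trivial)) (Equiv.refl _))))
    rw [hT, true_and]
    rfl

/-- If `x` has class size prime to `p` and the `p`-element `u` centralizes `x` modulo the centre,
then `u` centralizes `x`. -/
theorem commute_of_mod_center {G : Type*} [Group G] [Finite G] {p : ℕ} [hp : Fact p.Prime]
    {x u : G} (hx : ¬ p ∣ csz x) {k : ℕ} (hu : orderOf u = p ^ k)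
    (h : ((u : G ⧸ center G)) * (x : G ⧸ center G) = (x : G ⧸ center G) * (u : G ⧸ center G)) :
    u * x = x * u := by
  set C := centralizer ({x} : Set G) with hC
  set D := (centralizer ({(x : G ⧸ center G)} : Set (G ⧸ center G))).comap
    (QuotientGroup.mk' (center G)) with hD
  have hmemD : ∀ g : G, g ∈ D ↔ ∃ z ∈ center G, g * x = x * g * z := by
    intro g
    rw [hD, mem_comap, mem_centralizer_singleton_iff]
    change ((g : G ⧸ center G)) * (x : G ⧸ center G) = (x : G ⧸ center G) * (g : G ⧸ center G) ↔ _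
    rw [← QuotientGroup.mk_mul, ← QuotientGroup.mk_mul, eq_comm, QuotientGroup.eq]
    constructor
    · intro h
      exact ⟨_, h, by group⟩
    · rintro ⟨z, hz, h⟩
      rw [h, inv_mul_cancel_left]
      exact hz
  have hCD : C ≤ D := by
    intro g hg
    rw [hC, mem_centralizer_singleton_iff] at hg
    exact (hmemD g).2 ⟨1, one_mem _, by rw [hg, mul_one]⟩
  have hn : (C.subgroupOf D).Normal := by
    refine ⟨fun c hc g => ?_⟩
    rw [mem_subgroupOf, hC, mem_centralizer_singleton_iff] at hc ⊢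
    obtain ⟨z, hz, hgz⟩ := (hmemD _).1 (D.inv_mem g.2)
    have hz' : ∀ y, z * y = y * z := fun y => ((mem_center_iff.1 hz) y).symm
    have e1 : (g : G)⁻¹ * x = x * z * (g : G)⁻¹ := by rw [hgz, mul_assoc, mul_assoc, hz']
    have e2 : (g : G) * x = x * z⁻¹ * g := by
      have : x = (g : G) * (x * z) * (g : G)⁻¹ := by
        calc x = (g : G) * ((g : G)⁻¹ * x) := by group
          _ = _ := by rw [e1]; group
      have h3 : (g : G) * x = g * (x * z) * (g : G)⁻¹ * z⁻¹ * g := by
        have h4 : (g : G)⁻¹ * z⁻¹ = z⁻¹ * (g : G)⁻¹ := by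
          have := hz' (g : G)
          calc (g : G)⁻¹ * z⁻¹ = (z * g)⁻¹ := by group
            _ = (g * z)⁻¹ := by rw [this]
            _ = _ := by group
        calc (g : G) * x = g * x * (z * (z⁻¹ * (g : G)⁻¹)) * g := by group
          _ = g * x * (z * ((g : G)⁻¹ * z⁻¹)) * g := by rw [h4]
          _ = _ := by group
      rw [← this] at h3
      exact h3
    change ((g : G) * c * (g : G)⁻¹) * x = x * ((g : G) * c * (g : G)⁻¹)
    calc ((g : G) * c * (g : G)⁻¹) * x = g * c * ((g : G)⁻¹ * x) := by group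
      _ = g * (c * x) * z * (g : G)⁻¹ := by rw [e1]; group
      _ = g * x * (c * z) * (g : G)⁻¹ := by rw [hc]; group
      _ = (g * x) * (z * c) * (g : G)⁻¹ := by rw [hz']
      _ = x * z⁻¹ * g * (z * c) * (g : G)⁻¹ := by rw [e2]
      _ = x * z⁻¹ * (g * z) * c * (g : G)⁻¹ := by group
      _ = x * z⁻¹ * (z * g) * c * (g : G)⁻¹ := by rw [hz']
      _ = _ := by group
  have huD : u ∈ D := by
    rw [hD, mem_comap, mem_centralizer_singleton_iff]
    exact h
  have hidx : (C.subgroupOf D).index ∣ csz x := Subgroup.relIndex_dvd_index_of_le hCD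
  have h1 : orderOf ((⟨u, huD⟩ : D) : D ⧸ C.subgroupOf D) ∣ p ^ k := by
    rw [← hu]
    have h2 : orderOf ((⟨u, huD⟩ : D) : D ⧸ C.subgroupOf D) ∣ orderOf (⟨u, huD⟩ : D) :=
      orderOf_map_dvd (QuotientGroup.mk' (C.subgroupOf D)) _
    rwa [Subgroup.orderOf_mk] at h2
  have h2 : orderOf ((⟨u, huD⟩ : D) : D ⧸ C.subgroupOf D) ∣ csz x :=
    (_root_.orderOf_dvd_natCard _).trans hidx
  obtain ⟨j, -, hj⟩ := (Nat.dvd_prime_pow hp.out).1 h1
  have h3 : orderOf ((⟨u, huD⟩ : D) : D ⧸ C.subgroupOf D) = 1 := by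
    rcases Nat.eq_zero_or_pos j with rfl | hj0
    · rw [hj, pow_zero]
    · exfalso
      apply hx
      refine dvd_trans ?_ h2
      rw [hj]
      exact dvd_pow_self p hj0.ne'
  rw [orderOf_eq_one_iff, QuotientGroup.eq_one_iff, mem_subgroupOf, hC,
    mem_centralizer_singleton_iff] at h3
  exact h3

theorem csz_mul_center {G : Type*} [Group G] (x : G) {z : G} (hz : z ∈ center G) :
    csz (x * z) = csz x := by
  unfold csz
  congr 1
  ext g
  have hz' : ∀ y, z * y = y * z := fun y => ((mem_center_iff.1 hz) y).symm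
  rw [mem_centralizer_singleton_iff, mem_centralizer_singleton_iff, ← mul_assoc, mul_assoc x z g,
    hz', ← mul_assoc]
  exact mul_left_inj z

/-- The set of classes modulo the centre of elements with class size prime to `p`. -/
def XQ (G : Type*) [Group G] (p : ℕ) : Set (G ⧸ center G) :=
  {y | ∃ x : G, (x : G ⧸ center G) = y ∧ ¬ p ∣ csz x}

theorem mk_mem_XQ {G : Type*} [Group G] {p : ℕ} (x : G) :
    (x : G ⧸ center G) ∈ XQ G p ↔ ¬ p ∣ csz x := by
  constructor
  · rintro ⟨y, hy, h⟩
    rw [QuotientGroup.eq] at hy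
    have : x = y * (y⁻¹ * x) := by group
    rw [this, csz_mul_center _ hy]
    exact h
  · intro h
    exact ⟨x, rfl, h⟩

theorem card_X {G : Type*} [Group G] [Finite G] (p : ℕ) :
    Nat.card {x : G // ¬ p ∣ csz x} = Nat.card (center G) * Nat.card (XQ G p) := by
  rw [← Nat.card_prod]
  refine Nat.card_congr (Equiv.trans (Equiv.subtypeEquivRight fun x => ?_)
    (QuotientGroup.preimageMkEquivSubgroupProdSet (center G) (XQ G p)))
  exact (mk_mem_XQ x).symm

/-- The action of a Sylow subgroup on `XQ`. -/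
@[reducible] def actXQ {G : Type*} [Group G] {p : ℕ} (P : Subgroup G) : MulAction P (XQ G p) where
  smul u y := ⟨(u.1 : G ⧸ center G) * y.1 * (u.1 : G ⧸ center G)⁻¹, by
    obtain ⟨x, hx, h⟩ := y.2
    refine ⟨u.1 * x * u.1⁻¹, by rw [← hx]; rfl, ?_⟩
    have := csz_mulEquiv (MulAut.conj u.1) x
    rw [MulAut.conj_apply] at this
    rwa [this]⟩
  one_smul y := Subtype.ext (by
    change ((1 : G) : G ⧸ center G) * y.1 * ((1 : G) : G ⧸ center G)⁻¹ = y.1
    simp)
  mul_smul u v y := Subtype.ext (by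
    change ((u.1 * v.1 : G) : G ⧸ center G) * y.1 * ((u.1 * v.1 : G) : G ⧸ center G)⁻¹ =
      (u.1 : G ⧸ center G) * ((v.1 : G ⧸ center G) * y.1 * (v.1 : G ⧸ center G)⁻¹) *
        (u.1 : G ⧸ center G)⁻¹
    rw [QuotientGroup.mk_mul]
    group)

/-- If the number of elements of class size prime to `p` is as in a nilpotent group, then the
centre of a Sylow `p`-subgroup is central. -/
theorem center_sylow {G : Type*} [Group G] [Finite G] {p : ℕ} [hp : Fact p.Prime]
    (h : ¬ p ∣ Nat.card (XQ G p)) (P : Sylow p G) {z : G} (hzP : z ∈ (P : Subgroup G))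
    (hz : ∀ u ∈ (P : Subgroup G), u * z = z * u) : z ∈ center G := by
  classical
  let _ := actXQ (p := p) (P : Subgroup G)
  have h1 := P.isPGroup'.card_modEq_card_fixedPoints (XQ G p)
  set F := (centralizer ((P : Subgroup G) : Set G)).map (QuotientGroup.mk' (center G)) with hF
  have hfix : Nat.card (MulAction.fixedPoints (P : Subgroup G) (XQ G p)) = Nat.card F := by
    refine Nat.card_congr ⟨fun y => ⟨y.1.1, ?_⟩, fun y => ⟨⟨y.1, ?_⟩, ?_⟩, fun y => rfl, fun y => rfl⟩
    · obtain ⟨⟨y, x, rfl, hx⟩, hy⟩ := y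
      refine ⟨x, ?_, rfl⟩
      rw [SetLike.mem_coe, mem_centralizer_iff]
      intro u hu
      obtain ⟨k, hk⟩ := IsPGroup.iff_orderOf.1 P.isPGroup' ⟨u, hu⟩
      rw [Subgroup.orderOf_mk] at hk
      refine commute_of_mod_center hx hk ?_
      have := congrArg Subtype.val (hy ⟨u, hu⟩)
      change (u : G ⧸ center G) * (x : G ⧸ center G) * (u : G ⧸ center G)⁻¹ =
        (x : G ⧸ center G) at this
      rwa [mul_inv_eq_iff_eq_mul] at this
    · obtain ⟨y, x, hx, rfl⟩ := y
      refine ⟨x, rfl, fun hd => ?_⟩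
      have hle : (P : Subgroup G) ≤ centralizer ({x} : Set G) := by
        intro u hu
        rw [mem_centralizer_singleton_iff]
        exact (mem_centralizer_iff.1 hx) u hu
      exact P.not_dvd_index (hd.trans (Subgroup.index_dvd_of_le hle))
    · intro u
      obtain ⟨y, x, hx, rfl⟩ := y
      refine Subtype.ext ?_
      change (u.1 : G ⧸ center G) * (x : G ⧸ center G) * (u.1 : G ⧸ center G)⁻¹ =
        (x : G ⧸ center G)
      rw [mul_inv_eq_iff_eq_mul, ← QuotientGroup.mk_mul, ← QuotientGroup.mk_mul,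
        (mem_centralizer_iff.1 hx) u.1 u.2]
  rw [hfix] at h1
  have h2 : ¬ p ∣ Nat.card F := fun hd => h ((Nat.ModEq.dvd_iff h1 dvd_rfl).2 hd)
  have hzF : (z : G ⧸ center G) ∈ F := ⟨z, mem_centralizer_iff.2 (fun u hu => hz u hu), rfl⟩
  obtain ⟨k, hk⟩ := IsPGroup.iff_orderOf.1 P.isPGroup' ⟨z, hzP⟩
  rw [Subgroup.orderOf_mk] at hk
  have h3 : orderOf (z : G ⧸ center G) ∣ p ^ k := by
    rw [← hk]
    exact orderOf_map_dvd (QuotientGroup.mk' (center G)) z
  have h4 : orderOf (z : G ⧸ center G) ∣ Nat.card F := Subgroup.orderOf_dvd_natCard _ hzF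
  obtain ⟨j, -, hj⟩ := (Nat.dvd_prime_pow hp.out).1 h3
  rcases Nat.eq_zero_or_pos j with rfl | hj0
  · rw [pow_zero, orderOf_eq_one_iff, QuotientGroup.eq_one_iff] at hj
    exact hj
  · exfalso
    apply h2
    refine dvd_trans ?_ h4
    rw [hj]
    exact dvd_pow_self p hj0.ne'

theorem csz_dvd_of_mem_zpowers {G : Type*} [Group G] {x y : G} (h : y ∈ zpowers x) :
    csz y ∣ csz x := by
  refine Subgroup.index_dvd_of_le fun g hg => ?_
  rw [mem_centralizer_singleton_iff] at hg ⊢
  obtain ⟨n, rfl⟩ := h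
  exact ((show Commute g x from hg).zpow_right n).eq

/-- An element of order prime to `p` and of `p`-power class size is central. -/
theorem center_of_csz {G : Type*} [Group G] [Finite G] {p : ℕ} [hp : Fact p.Prime]
    (hc : ∀ (q : ℕ) [Fact q.Prime] (P : Sylow q G), ∀ z ∈ (P : Subgroup G),
      (∀ u ∈ (P : Subgroup G), u * z = z * u) → z ∈ center G)
    {b : G} (hb : (orderOf b).Coprime p) {k : ℕ} (hk : csz b = p ^ k) : b ∈ center G := by
  rw [← QuotientGroup.eq_one_iff, ← orderOf_eq_one_iff]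
  by_contra hne
  obtain ⟨q, hq, hqd⟩ := Nat.exists_prime_and_dvd hne
  have : Fact q.Prime := ⟨hq⟩
  obtain ⟨c, d, hcd, hcomm, ⟨j, hj⟩, hd, hcz, -⟩ :=
    Cfsg.Agent.H524.ClassSize.exists_decomp q b
  have hqb : q ∣ orderOf b := hqd.trans (orderOf_map_dvd (QuotientGroup.mk' (center G)) b)
  have hqp : q ≠ p := by
    rintro rfl
    exact (Nat.Prime.coprime_iff_not_dvd hq).1 hb.symm hqb
  have hcc : ¬ q ∣ csz c := by
    intro h
    have h1 : q ∣ p ^ k := by
      rw [← hk]
      exact h.trans (csz_dvd_of_mem_zpowers hcz)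
    exact hqp ((Nat.prime_dvd_prime_iff_eq hq hp.out).1 (hq.dvd_of_dvd_pow h1))
  have hzp : IsPGroup q (zpowers c) := by
    apply IsPGroup.of_card (n := j)
    rw [Nat.card_zpowers, hj]
  obtain ⟨P, hP1, hP2⟩ := Cfsg.Agent.H524.ClassSize.exists_sylow_between (p := q)
    (H := centralizer ({c} : Set G)) hcc hzp
    (by rw [zpowers_le, mem_centralizer_singleton_iff])
  have hcZ : c ∈ center G := hc q P c (hP1 (mem_zpowers c)) fun u hu => by
    have := hP2 hu
    rwa [mem_centralizer_singleton_iff] at this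
  have h1 : (b : G ⧸ center G) = (d : G ⧸ center G) := by
    rw [← hcd, QuotientGroup.mk_mul, (QuotientGroup.eq_one_iff c).2 hcZ, one_mul]
  rw [h1] at hqd
  have h2 : q ∣ orderOf d := hqd.trans (orderOf_map_dvd (QuotientGroup.mk' (center G)) d)
  exact (Nat.Prime.coprime_iff_not_dvd hq).1 hd.symm h2

/-- A `p`-element of `p`-power class size lies in every Sylow `p`-subgroup. -/
theorem mem_sylow {G : Type*} [Group G] [Finite G] {p : ℕ} [hp : Fact p.Prime]
    {a : G} {j k : ℕ} (ha : orderOf a = p ^ j) (hk : csz a = p ^ k) (P : Sylow p G) :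
    a ∈ (P : Subgroup G) := by
  have hzp : IsPGroup p (zpowers a) := by
    apply IsPGroup.of_card (n := j)
    rw [Nat.card_zpowers, ha]
  obtain ⟨P₀, hP₀⟩ := hzp.exists_le_sylow
  obtain ⟨g, rfl⟩ := MulAction.exists_smul_eq G P₀ P
  have hcop : (centralizer ({a} : Set G)).index.Coprime (P₀ : Subgroup G).index := by
    change (csz a).Coprime _
    rw [hk]
    exact Nat.Coprime.pow_left k ((Nat.Prime.coprime_iff_not_dvd hp.out).2 P₀.not_dvd_index)
  obtain ⟨c, hc, u, hu, rfl⟩ := Cfsg.Agent.S0007.exists_mul_eq _ _ hcop g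
  rw [mem_centralizer_singleton_iff] at hc
  change a ∈ MulAut.conj (c * u) • (P₀ : Subgroup G)
  rw [Subgroup.mem_pointwise_smul_iff_inv_smul_mem, ← map_inv, MulAut.smul_def,
    MulAut.conj_apply]
  have h1 : (c * u)⁻¹ * a * (c * u)⁻¹⁻¹ = u⁻¹ * a * u := by
    have : c⁻¹ * a * c = a := by
      rw [mul_assoc, ← hc]; group
    calc (c * u)⁻¹ * a * (c * u)⁻¹⁻¹ = u⁻¹ * (c⁻¹ * a * c) * u := by group
      _ = _ := by rw [this]
  rw [h1]
  exact mul_mem (mul_mem (inv_mem hu) (hP₀ (mem_zpowers a))) hu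

theorem card_sylow_of {G : Type*} [Group G] [Finite G] {p a m : ℕ} [hp : Fact p.Prime]
    (h : Nat.card G = p ^ a * m) (hm : m.Coprime p) (P : Sylow p G) :
    Nat.card (P : Subgroup G) = p ^ a := by
  have h1 := P.card_eq_multiplicity
  rw [h1]
  congr 1
  have hm0 : m ≠ 0 := by
    rintro rfl
    rw [mul_zero] at h
    exact Nat.card_pos.ne' h
  rw [h, Nat.factorization_mul (pow_ne_zero _ hp.out.ne_zero) hm0, Finsupp.add_apply,
    hp.out.factorization_pow, Finsupp.single_eq_same,
    Nat.factorization_eq_zero_of_not_dvd ((Nat.Prime.coprime_iff_not_dvd hp.out).1 hm.symm), add_zero]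

theorem normal_of_counts {G : Type*} [Group G] [Finite G] {p a b m n : ℕ} [hp : Fact p.Prime]
    (hc : ∀ (q : ℕ) [Fact q.Prime] (P : Sylow q G), ∀ z ∈ (P : Subgroup G),
      (∀ u ∈ (P : Subgroup G), u * z = z * u) → z ∈ center G)
    (hm : m.Coprime p) (hn : n.Coprime p)
    (hG : Nat.card G = p ^ a * m) (hZ : Nat.card (center G) = p ^ b * n)
    (hT : Nat.card {x : G // ∃ k, csz x = p ^ k} = p ^ a * n) (P : Sylow p G) :
    (P : Subgroup G).Normal := by
  classical
  set K : Subgroup G := ⨅ Q : Sylow p G, (Q : Subgroup G) with hK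
  have hmemK : ∀ x : G, x ∈ K ↔ ∀ Q : Sylow p G, x ∈ (Q : Subgroup G) := by
    intro x
    rw [hK, mem_iInf]
  have hsub : ∀ x : G, (∃ k, csz x = p ^ k) → x ∈ K ⊔ center G := by
    rintro x ⟨k, hk⟩
    obtain ⟨u, v, rfl, -, ⟨j, hj⟩, hv, hu, hv'⟩ := Cfsg.Agent.H524.ClassSize.exists_decomp p x
    have h1 : ∀ y ∈ zpowers (u * v), ∃ i, csz y = p ^ i := by
      intro y hy
      have := csz_dvd_of_mem_zpowers hy
      rw [hk] at this
      obtain ⟨i, -, hi⟩ := (Nat.dvd_prime_pow hp.out).1 this
      exact ⟨i, hi⟩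
    obtain ⟨i, hi⟩ := h1 u hu
    obtain ⟨i', hi'⟩ := h1 v hv'
    exact mul_mem_sup ((hmemK u).2 fun Q => mem_sylow hj hi Q) (center_of_csz hc hv hi')
  have h5 : p ^ a * n ≤ Nat.card (K ⊔ center G : Subgroup G) := by
    rw [← hT]
    exact Nat.card_le_card_of_injective
      (fun x : {x : G // ∃ k, csz x = p ^ k} => (⟨x.1, hsub x.1 x.2⟩ : (K ⊔ center G : Subgroup G)))
      (fun x y hxy => Subtype.ext (congrArg (fun z : (K ⊔ center G : Subgroup G) => (z : G)) hxy))
  have h4 : p ^ b ≤ Nat.card ((center G).subgroupOf K) := by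
    let S : Sylow p (center G) := default
    have hS := card_sylow_of hZ hn S
    rw [← hS]
    refine Nat.card_le_card_of_injective
      (fun x : (S : Subgroup (center G)) => (⟨⟨x.1.1, ?_⟩, ?_⟩ : (center G).subgroupOf K)) ?_
    · rw [hmemK]
      intro Q
      obtain ⟨i, hi⟩ := IsPGroup.iff_orderOf.1 S.isPGroup' x
      have hi' : orderOf (x.1.1 : G) = p ^ i := by
        rw [← hi, Subgroup.orderOf_coe, Subgroup.orderOf_coe]
      exact mem_sylow hi' (k := 0) (by rw [pow_zero, csz_eq_one_iff]; exact x.1.2) Q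
    · rw [mem_subgroupOf]
      exact x.1.2
    · intro x y hxy
      have := congrArg (fun z : (center G).subgroupOf K => (z.1.1 : G)) hxy
      exact Subtype.ext (Subtype.ext this)
  have h1 : Nat.card (center G) * (center G).relIndex (K ⊔ center G) =
      Nat.card (K ⊔ center G : Subgroup G) := by
    have := ((center G).subgroupOf (K ⊔ center G)).card_mul_index
    rw [Nat.card_congr (Subgroup.subgroupOfEquivOfLe le_sup_right).toEquiv] at this
    exact this
  have h2 : (center G).relIndex (K ⊔ center G) = (center G).relIndex K :=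
    Subgroup.relIndex_sup_right _ _
  have h3 : Nat.card ((center G).subgroupOf K) * (center G).relIndex K = Nat.card K :=
    ((center G).subgroupOf K).card_mul_index
  rw [h2, hZ] at h1
  rw [← h1] at h5
  have hn0 : 0 < n := by
    rcases Nat.eq_zero_or_pos n with rfl | h
    · rw [mul_zero] at hZ
      exact absurd hZ Nat.card_pos.ne'
    · exact h
  have h6 : p ^ a ≤ p ^ b * (center G).relIndex K := by
    refine Nat.le_of_mul_le_mul_right (c := n) ?_ hn0
    calc p ^ a * n ≤ _ := h5
      _ = _ := by ring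
  have h7 : Nat.card (P : Subgroup G) ≤ Nat.card K := by
    rw [card_sylow_of hG hm P, ← h3]
    exact h6.trans (Nat.mul_le_mul_right _ h4)
  have hle : K ≤ (P : Subgroup G) := fun x hx => (hmemK x).1 hx P
  have hKP : K = (P : Subgroup G) := Subgroup.eq_of_le_of_card_ge hle h7
  refine ⟨fun x hx g => ?_⟩
  rw [← hKP, hmemK] at hx
  have := hx (g⁻¹ • P)
  change x ∈ MulAut.conj g⁻¹ • (P : Subgroup G) at this
  rw [Subgroup.mem_pointwise_smul_iff_inv_smul_mem, ← map_inv, MulAut.smul_def,
    MulAut.conj_apply, inv_inv] at this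
  exact this

end Cfsg.Agent.H683.ClassCount
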