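import Mathlib
import Cfsg.Agent.H683.TwoNormalB

/-!
# Normal subgroups with two `G`-class sizes, containing a Sylow subgroup: no square
-/

set_option autoImplicit false
set_option linter.unusedSectionVars false

namespace Cfsg.Agent.H683.TwoNormal

open Subgroup Cfsg.Agent.H683.TwoSize
open scoped commutatorElement Pointwise

variable {G : Type*} [Group G] [Finite G] {r : ℕ} [hr : Fact r.Prime] {N : Subgroup G} {m : ℕ}

theorem pow_mem_cz {u y : G} {k : ℕ} (h : ⁅u, y⁆ ∈ center G) (h1 : ⁅u, y⁆ ^ k = 1) :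
    u ^ k ∈ cz y := by
  have e : u * y = ⁅u, y⁆ * y * u := by rw [commutatorElement_def]; group
  have hz := mem_center_iff.1 h
  have key : ∀ j : ℕ, u ^ j * y = ⁅u, y⁆ ^ j * y * u ^ j := by
    intro j
    induction j with
    | zero => simp only [pow_zero, one_mul, mul_one]
    | succ j ih =>
      have h2 := (mem_center_iff.1 (pow_mem h j)) u
      calc u ^ (j + 1) * y = u * (u ^ j * y) := by rw [pow_succ', mul_assoc]
        _ = u * ⁅u, y⁆ ^ j * (y * u ^ j) := by rw [ih, mul_assoc, mul_assoc]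
        _ = ⁅u, y⁆ ^ j * (u * y) * u ^ j := by rw [h2, mul_assoc, mul_assoc, mul_assoc]
        _ = ⁅u, y⁆ ^ j * (⁅u, y⁆ * y * u) * u ^ j := by rw [← e]
        _ = (⁅u, y⁆ ^ j * ⁅u, y⁆) * y * (u * u ^ j) := by simp only [mul_assoc]
        _ = _ := by rw [← pow_succ, ← pow_succ']
  rw [mem_cz, key k, h1, one_mul]

/-- The square case is impossible. -/
theorem sq_contra [hN : N.Normal] (h : TwoG N m) (hrm : r ∣ m)
    (hS : ∀ R : Sylow r G, (R : Subgroup G) ≤ N)
    (hc0 : ∀ v ∈ N, v ∉ center G → r * r ∣ (center G).relIndex (cz v)) {x : G} (hxN : x ∈ N)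
    (hxZ : x ∉ center G) (hxr : REl r x) (hxg : Good N r x) : False := by
  obtain ⟨R, hxR', hRx⟩ := exists_sylow_inf (C := cz x) (T0 := zpowers x) hxr.zpowers
    (zpowers_le.2 (self_mem_cz x))
  have hxR : x ∈ (R : Subgroup G) := hxR' (mem_zpowers x)
  have hK2 := sq_dvd_relIndex_center (center_le_cz x) hRx (hc0 x hxN hxZ)
  obtain ⟨K, hK⟩ : ∃ K : Subgroup G, K = (R : Subgroup G) ⊓ cz x := ⟨_, rfl⟩
  rw [← hK] at hK2
  have hKm : ∀ u, u ∈ K ↔ u ∈ (R : Subgroup G) ∧ u ∈ cz x := fun u => by rw [hK, mem_inf]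
  have hKR : K ≤ R := fun u hu => ((hKm u).1 hu).1
  have hRZ : ¬ (R : Subgroup G) ≤ center G := fun h1 => hxZ (h1 hxR)
  obtain ⟨y, hyR, hyZ, hyr, hyc⟩ := exists_central_mod R hRZ
  have hyN := hS R hyR
  have hyb : ¬ Good N r y := fun hyg => no_good_central h hrm hS hc0 hyR hyZ hyr hyc hyg
  have hyx : y ∉ cz x := by
    intro h1
    have h2 := good_eq h hxN hxZ hxr hxg hyN hyZ h1
    exact hyb (hxg.of_le h2.symm.le)
  have hKe : ∀ u ∈ K, u ∉ center G → cz u = cz x := fun u hu huZ =>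
    good_eq h hxN hxZ hxr hxg (hS R (hKR hu)) huZ ((hKm u).1 hu).2
  have hKy : ∀ u ∈ K, u ∉ center G → u ∉ cz y := by
    intro u hu huZ huy
    apply hyx
    rw [← hKe u hu huZ]
    exact mem_cz.2 (mem_cz.1 huy).symm
  have hKr : ∀ u ∈ K, u ^ r ∈ center G := by
    intro u hu
    by_contra huZ
    refine hKy _ (pow_mem hu r) huZ ?_
    have h1 := hyc u (hKR hu)
    exact pow_mem_cz h1 (theta_pow h1 hyr)
  have hkey : ∀ t ∈ (R : Subgroup G), ∀ u ∈ K, u ∉ center G → ⁅t, u⁆ ∈ center G →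
      ∃ j : ℕ, t * y ^ j ∈ K := by
    intro t ht u hu huZ htu
    have he := hKe u hu huZ
    have hyu : ⁅y, u⁆ ∈ center G := by
      rw [← commutatorElement_inv]
      exact inv_mem (hyc u (hKR hu))
    have h1 : t ∈ normalizer (cz x : Set G) := by rw [← he]; exact mem_normalizer_cz htu
    have h2 : y ∈ normalizer (cz x : Set G) := by rw [← he]; exact mem_normalizer_cz hyu
    have h3 : t ^ r ∈ cz x := by
      rw [← he]; exact pow_mem_cz htu (theta_pow htu (hKr u hu))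
    obtain ⟨j, hj⟩ := exists_mem_good h hxN hxZ hxr hxg h1 h2 h3 (center_le_cz x hyr)
      (center_le_cz x (hyc t ht)) hyx
    exact ⟨j, (hKm _).2 ⟨mul_mem ht (pow_mem hyR j), hj⟩⟩
  have hKp : IsPGroup r K := R.isPGroup'.to_le hKR
  have hKZ : ¬ K ≤ center G := by
    intro h1
    exact hxZ (h1 ((hKm x).2 ⟨hxR, self_mem_cz x⟩))
  obtain ⟨T, hT⟩ : ∃ T : Subgroup G, T = (R : Subgroup G) ⊓ normalizer (K : Set G) := ⟨_, rfl⟩
  have hTR : T ≤ R := hT ▸ inf_le_left
  have hTn : T ≤ normalizer (K : Set G) := hT ▸ inf_le_right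
  have hTp : IsPGroup r T := R.isPGroup'.to_le hTR
  have hKT : K ≤ T := hT ▸ le_inf hKR le_normalizer
  obtain ⟨u, hu, huZ, huT⟩ := exists_fixed hTp hKp hTn hKZ
  have hTK : ∀ t ∈ T, ∃ j : ℕ, t * y ^ j ∈ K := fun t ht =>
    hkey t (hTR ht) u hu huZ (huT t ht)
  have hyK : y ^ r ∈ K := (hKm _).2 ⟨pow_mem hyR r, center_le_cz x hyr⟩
  have hcardT : Nat.card T ≤ Nat.card K * r := by
    let f : K × Fin r → G := fun a => a.1 * (y ^ (a.2 : ℕ))⁻¹
    have h1 : (T : Set G) ⊆ Set.range f := by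
      intro t ht
      obtain ⟨j, hj⟩ := hTK t ht
      have h2 : t * y ^ (j % r) ∈ K := by
        have e : t * y ^ (j % r) = t * y ^ j * ((y ^ r) ^ (j / r))⁻¹ := by
          rw [← pow_mul]
          nth_rw 2 [← Nat.mod_add_div j r]
          rw [pow_add]; group
        rw [e]
        exact mul_mem hj (inv_mem (pow_mem hyK _))
      exact ⟨(⟨_, h2⟩, ⟨j % r, Nat.mod_lt _ hr.out.pos⟩), by simp [f]⟩
    calc Nat.card T = (T : Set G).ncard := rfl
      _ ≤ (Set.range f).ncard := Set.ncard_le_ncard h1 (Set.toFinite _)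
      _ ≤ Nat.card (K × Fin r) := by
        rw [← Set.image_univ, ← Set.ncard_univ (K × Fin r)]
        exact Set.ncard_image_le (Set.toFinite _)
      _ = Nat.card K * r := by rw [Nat.card_prod, Nat.card_fin]
  have hTne : T ≠ R := by
    intro hTR
    have hug : Good N r u := hxg.of_le (hKe u hu huZ).symm.le
    exact no_good_central h hrm hS hc0 (hKR hu) huZ (hKr u hu)
      (fun g hg => huT g (by rw [hTR]; exact hg)) hug
  obtain ⟨t, htR, htT, htn⟩ : ∃ t ∈ (R : Subgroup G), t ∉ T ∧ ∀ w ∈ T, t * w * t⁻¹ ∈ T := by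
    have : Group.IsNilpotent (R : Subgroup G) := R.isPGroup'.isNilpotent
    have hnc := Group.normalizerCondition_of_isNilpotent (G := (R : Subgroup G))
    have h1 : T.subgroupOf (R : Subgroup G) < ⊤ := by
      rw [lt_top_iff_ne_top]
      intro h2
      exact hTne (le_antisymm hTR (subgroupOf_eq_top.1 h2))
    obtain ⟨t, ht1, ht2⟩ := Set.exists_of_ssubset (hnc _ h1)
    refine ⟨t, t.2, ht2, fun w hw => ?_⟩
    exact ((mem_normalizer_iff.1 ht1) ⟨w, hTR hw⟩).1 hw
  -- the conjugate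
  obtain ⟨K', hK'⟩ : ∃ K' : Subgroup G, K' = K.map (MulAut.conj t).toMonoidHom := ⟨_, rfl⟩
  have hK'c : Nat.card K' = Nat.card K := by
    rw [hK']
    exact card_map_of_injective (MulAut.conj t).injective
  have hK'T : K' ≤ T := by
    rw [hK']
    rintro _ ⟨w, hw, rfl⟩
    exact htn w (hKT hw)
  have hKK' : K' ⊓ K ≤ center G := by
    rintro w ⟨hw1, hw2⟩
    by_contra hwZ
    rw [SetLike.mem_coe, hK'] at hw1
    obtain ⟨v, hv, hvw⟩ := hw1
    have hvw' : t * v * t⁻¹ = w := hvw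
    have hvZ : v ∉ center G := by
      intro h1
      apply hwZ
      rw [← hvw']
      exact conj_mem_center h1
    have h1 := hKe v hv hvZ
    have h2 := hKe w hw2 hwZ
    have h3 : ∀ c, c ∈ cz x ↔ t⁻¹ * c * t ∈ cz x := by
      intro c
      rw [← h1, ← mem_cz_conj, hvw', h2, h1]
    apply htT
    rw [hT]
    refine mem_inf.2 ⟨htR, mem_normalizer_of (fun c hc => ?_) (fun c hc => ?_)⟩
    · rw [hKm] at hc ⊢
      refine ⟨mul_mem (mul_mem htR hc.1) (inv_mem htR), ?_⟩
      rw [h3]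
      have e : t⁻¹ * (t * c * t⁻¹) * t = c := by group
      rw [e]; exact hc.2
    · rw [hKm] at hc ⊢
      exact ⟨mul_mem (mul_mem (inv_mem htR) hc.1) htR, (h3 c).1 hc.2⟩
  have h1 : K'.relIndex T ≤ r := by
    have h2 : Nat.card K' * K'.relIndex T = Nat.card T := by
      have := card_mul_index (K'.subgroupOf T)
      rw [Nat.card_congr (subgroupOfEquivOfLe hK'T).toEquiv] at this
      exact this
    rw [← hK'c, ← h2] at hcardT
    exact Nat.le_of_mul_le_mul_left hcardT Nat.card_pos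
  have h2 : K'.relIndex K ≤ K'.relIndex T := relIndex_le_of_le_right hKT (relIndex_ne_zero _ _)
  have h3 : (center G).relIndex K ≤ K'.relIndex K := by
    have h4 := relIndex_dvd_of_le_left K hKK'
    rw [inf_relIndex_right] at h4
    exact Nat.le_of_dvd (Nat.pos_of_ne_zero (relIndex_ne_zero _ _)) h4
  have h4 : r * r ≤ (center G).relIndex K :=
    Nat.le_of_dvd (Nat.pos_of_ne_zero (relIndex_ne_zero _ _)) hK2
  have h5 := hr.out.one_lt
  nlinarith

end Cfsg.Agent.H683.TwoNormal
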