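import Mathlib
import Cfsg.Agent.H683.TwoSizeTop

/-!
# Groups with two class sizes: the partition case is impossible
-/

set_option autoImplicit false

namespace Cfsg.Agent.H683.TwoSize

open Subgroup
open scoped commutatorElement

section

variable {G : Type*} [Group G]

/-- The elements of order prime to `r` in an abelian subgroup. -/
def primeTo (C : Subgroup G) (hC : ∀ x ∈ C, ∀ y ∈ C, x * y = y * x) (r : ℕ) : Subgroup G where
  carrier := {w | w ∈ C ∧ (orderOf w).Coprime r}
  one_mem' := ⟨one_mem C, by rw [orderOf_one]; exact Nat.coprime_one_left r⟩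
  mul_mem' := by
    rintro a b ⟨ha, ha'⟩ ⟨hb, hb'⟩
    refine ⟨mul_mem ha hb, ?_⟩
    have h1 := (show Commute a b from hC a ha b hb).orderOf_mul_dvd_lcm
    exact Nat.Coprime.coprime_dvd_left (h1.trans (Nat.lcm_dvd_mul _ _)) (Nat.Coprime.mul_left ha' hb')
  inv_mem' := by
    rintro a ⟨ha, ha'⟩
    exact ⟨inv_mem ha, by rwa [orderOf_inv]⟩

theorem mem_primeTo {C : Subgroup G} {hC : ∀ x ∈ C, ∀ y ∈ C, x * y = y * x} {r : ℕ} {w : G} :
    w ∈ primeTo C hC r ↔ w ∈ C ∧ (orderOf w).Coprime r := Iff.rfl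

end

variable {G : Type*} [Group G] [Finite G] {n : ℕ}

/-- All centralizers of non-central elements are abelian, and their index over the center is
divisible by two primes: no noncyclic action. -/
theorem exists_mem (h : TwoG (⊤ : Subgroup G) n)
    (hAb : ∀ z : G, z ∉ center G → ∀ u ∈ cz z, cz z ≤ cz u) {t r : ℕ} (ht : t.Prime)
    (hr : r.Prime) (htr : t ≠ r) {y : G} (hyZ : y ∉ center G)
    (hty : t ∣ (center G).relIndex (cz y)) (hyr : y ^ r ∈ center G) (hyo : ∃ k, orderOf y = r ^ k)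
    {a b : G} (ha : ⁅a, y⁆ ∈ center G) (hb : ⁅b, y⁆ ∈ center G) (hbC : b ∉ cz y) :
    ∃ j : ℕ, a * b ^ j ∈ cz y := by
  have hrf : Fact r.Prime := ⟨hr⟩
  by_contra hcon
  push Not at hcon
  have hC : ∀ x ∈ cz y, ∀ w ∈ cz y, x * w = w * x := fun x hx w hw =>
    mem_cz.1 (hAb y hyZ w hw hx)
  have hCle : ∀ g ∈ cz y, g ∈ centralizer (cz y : Set G) := fun g hg => by
    rw [mem_centralizer_iff]
    exact fun x hx => hC x hx g hg
  -- the homomorphism
  let R : Subgroup G := closure {a, b}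
  have hR : ∀ g ∈ R, ⁅g, y⁆ ∈ center G := by
    intro g hg
    induction hg using closure_induction with
    | mem x hx =>
      rcases hx with rfl | rfl
      · exact ha
      · exact hb
    | one => rw [commutatorElement_one_left]; exact one_mem _
    | mul x z _ _ hx hz =>
      have e : ⁅x * z, y⁆ = x * ⁅z, y⁆ * x⁻¹ * ⁅x, y⁆ := by
        simp only [commutatorElement_def]; group
      rw [e, mem_center_iff.1 hz x, mul_inv_cancel_right]
      exact mul_mem hz hx
    | inv x _ hx =>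
      have e : ⁅x⁻¹, y⁆ = x⁻¹ * ⁅x, y⁆⁻¹ * x := by simp only [commutatorElement_def]; group
      rw [e, mem_center_iff.1 (inv_mem hx) x⁻¹, inv_mul_cancel_right]
      exact inv_mem hx
  obtain ⟨θ, hθ⟩ := exists_theta hR
  have haR : a ∈ R := subset_closure (Set.mem_insert _ _)
  have hbR : b ∈ R := subset_closure (Set.mem_insert_of_mem _ rfl)
  have hker : ∀ g : R, θ g = 1 → (g : G) ∈ cz y := by
    intro g hg
    have h1 := hθ g
    rw [hg, OneMemClass.coe_one] at h1
    rw [mem_cz]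
    exact commutatorElement_eq_one_iff_mul_comm.1 h1.symm
  have hpow : ∀ g ∈ R, g ^ r ∈ cz y := by
    intro g hg
    refine hker ((⟨g, hg⟩ : R) ^ r) ?_
    rw [map_pow]
    apply Subtype.ext
    rw [SubmonoidClass.coe_pow, hθ]
    exact theta_pow (hR g hg) hyr
  have hcomm : ⁅a, b⁆ ∈ cz y := by
    refine hker ⁅(⟨a, haR⟩ : R), (⟨b, hbR⟩ : R)⁆ ?_
    rw [map_commutatorElement, commutatorElement_eq_one_iff_mul_comm]
    exact Subtype.ext (mem_center_iff.1 (θ ⟨b, hbR⟩).2 _)
  have hordconj : ∀ g w : G, orderOf (g * w * g⁻¹) = orderOf w := fun g w =>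
    (MulAut.conj g).orderOf_eq w
  have key := ident (p := r) (cz y) hC (mem_normalizer_cz ha) (mem_normalizer_cz hb)
    (hCle _ (hpow a haR)) (hCle _ (hpow b hbR)) (hCle _ hcomm) (primeTo (cz y) hC r) (center G)
    (fun w hw => hw.1)
    (fun w hw => by
      rw [mem_primeTo] at hw ⊢
      refine ⟨((mem_normalizer_iff.1 (mem_normalizer_cz ha)) w).1 hw.1, ?_⟩
      rw [hordconj]; exact hw.2)
    (fun w hw => by
      rw [mem_primeTo] at hw ⊢
      refine ⟨((mem_normalizer_iff.1 (mem_normalizer_cz hb)) w).1 hw.1, ?_⟩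
      rw [hordconj]; exact hw.2)
  have hcent : ∀ w ∈ primeTo (cz y) hC r, w ∉ center G → cz w = cz y := by
    intro w hw hwZ
    refine (h.eq_of_le (mem_top _) hyZ (mem_top _) hwZ ?_).symm
    exact hAb y hyZ w hw.1
  have key2 := key
    (fun w hw hbw => by
      by_contra hwZ
      apply hbC
      rw [← hcent w hw hwZ, mem_cz]
      exact hbw)
    (fun j w hw hjw => by
      by_contra hwZ
      apply hcon j
      rw [← hcent w hw hwZ, mem_cz]
      exact hjw)
  obtain ⟨w, hwy, hwZ, -, k, hk⟩ := exists_of_dvd_relIndex_center ht hty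
  have hcop : (orderOf w).Coprime r := by
    rw [hk]
    exact Nat.Coprime.pow_left _ ((Nat.coprime_primes ht hr).2 htr)
  obtain ⟨m, hm⟩ := exists_pow_eq_self_of_coprime hcop.symm
  apply hwZ
  rw [← hm]
  exact pow_mem (key2 w ⟨hwy, hcop⟩) m

/-- The Sylow step. -/
theorem sylow_step (h : TwoG (⊤ : Subgroup G) n) (hex : ∃ x : G, x ∉ center G)
    (hAb : ∀ z : G, z ∉ center G → ∀ u ∈ cz z, cz z ≤ cz u) {a r : ℕ} (hr : r.Prime)
    (ha : ∀ z : G, z ∉ center G → (center G).relIndex (cz z) = a)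
    (hta : ∃ t : ℕ, t.Prime ∧ t ≠ r ∧ t ∣ a) (hrn : r ∣ n) :
    ∃ y g : G, y ∉ center G ∧ (∃ k, orderOf y = r ^ k) ∧ (∃ k, g ^ r ^ k = 1) ∧ g ∉ cz y ∧
      g ∈ normalizer (cz y : Set G) ∧ ¬ r * r ∣ n := by
  have hrf : Fact r.Prime := ⟨hr⟩
  obtain ⟨R⟩ : Nonempty (Sylow r G) := inferInstance
  have hRle : ∀ z : G, (R : Subgroup G) ≤ cz z → z ∈ center G := by
    intro z hz
    by_contra hzZ
    have h1 : (cz z).index ∣ (R : Subgroup G).index := Subgroup.index_dvd_of_le hz
    rw [h.index_eq (mem_top _) hzZ] at h1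
    exact R.not_dvd_index (hrn.trans h1)
  have hRZ : ¬ (R : Subgroup G) ≤ center G := by
    intro h1
    obtain ⟨x, hx⟩ := hex
    exact hx (hRle x (h1.trans (center_le_cz x)))
  obtain ⟨y, hyR, hyZ, hyr, hyc⟩ := exists_central_mod R hRZ
  have hyo : ∃ k, orderOf y = r ^ k := by
    obtain ⟨k, hk⟩ := IsPGroup.iff_orderOf.1 R.isPGroup' ⟨y, hyR⟩
    exact ⟨k, by rw [← hk, Subgroup.orderOf_mk]⟩
  obtain ⟨g, hgR, hgC⟩ : ∃ g ∈ (R : Subgroup G), g ∉ cz y := by
    by_contra hcon
    push Not at hcon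
    exact hyZ (hRle y hcon)
  have hgo : ∃ k, g ^ r ^ k = 1 := by
    obtain ⟨k, hk⟩ := R.isPGroup' ⟨g, hgR⟩
    refine ⟨k, ?_⟩
    have := congrArg Subtype.val hk
    exact this
  obtain ⟨t, ht, htr, hta⟩ := hta
  refine ⟨y, g, hyZ, hyo, hgo, hgC, mem_normalizer_cz (hyc g hgR), ?_⟩
  -- the homomorphism `θ` has image of order `r`
  obtain ⟨θ, hθ⟩ := exists_theta hyc
  have hker : θ.ker = (cz y).subgroupOf (R : Subgroup G) := by
    ext u
    rw [MonoidHom.mem_ker, mem_subgroupOf, mem_cz, ← commutatorElement_eq_one_iff_mul_comm,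
      ← hθ]
    exact Subtype.ext_iff
  have hrange : θ.range = zpowers (θ ⟨g, hgR⟩) := by
    apply le_antisymm
    · rintro _ ⟨u, rfl⟩
      obtain ⟨j, hj⟩ := exists_mem h hAb ht hr htr hyZ (by rw [ha y hyZ]; exact hta) hyr hyo
        (hyc u u.2) (hyc g hgR) hgC
      have h1 : u * ⟨g, hgR⟩ ^ j ∈ θ.ker := by
        rw [hker, mem_subgroupOf]
        exact hj
      rw [MonoidHom.mem_ker, map_mul, map_pow] at h1
      rw [eq_inv_of_mul_eq_one_left h1]
      exact inv_mem (pow_mem (mem_zpowers _) j)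
    · rw [zpowers_le]
      exact ⟨_, rfl⟩
  have hcard : Nat.card θ.range ∣ r := by
    rw [hrange, Nat.card_zpowers]
    apply orderOf_dvd_of_pow_eq_one
    apply Subtype.ext
    rw [SubmonoidClass.coe_pow, hθ]
    exact theta_pow (hyc g hgR) hyr
  rw [← Subgroup.index_ker, hker] at hcard
  intro hrr
  have h1 := ((cz y).subgroupOf (R : Subgroup G)).card_mul_index
  have h2 : Nat.card ((cz y).subgroupOf (R : Subgroup G)) ∣ Nat.card (cz y) := by
    rw [← Subgroup.card_map_of_injective (R : Subgroup G).subtype_injective,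
      subgroupOf_map_subtype]
    exact Subgroup.card_dvd_of_le inf_le_left
  have h3 := (cz y).card_mul_index
  rw [h.index_eq (mem_top _) hyZ] at h3
  have h4 := (R : Subgroup G).card_mul_index
  have h5 : Nat.card (R : Subgroup G) ∣ Nat.card (cz y) * r := by
    rw [← h1]
    exact mul_dvd_mul h2 hcard
  have h6 : Nat.card (R : Subgroup G) * r ∣ Nat.card (R : Subgroup G) * (R : Subgroup G).index := by
    rw [h4, ← h3]
    calc Nat.card (R : Subgroup G) * r ∣ (Nat.card (cz y) * r) * r := mul_dvd_mul_right h5 r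
      _ = Nat.card (cz y) * (r * r) := by ring
      _ ∣ Nat.card (cz y) * n := mul_dvd_mul_left _ hrr
  exact R.not_dvd_index (Nat.dvd_of_mul_dvd_mul_left Nat.card_pos h6)

/-- The partition case is impossible. -/
theorem case_one (h : TwoG (⊤ : Subgroup G) n) (hex : ∃ x : G, x ∉ center G)
    (hAb : ∀ z : G, z ∉ center G → ∀ u ∈ cz z, cz z ≤ cz u) {a p q : ℕ}
    (ha : ∀ z : G, z ∉ center G → (center G).relIndex (cz z) = a)
    (hp : p.Prime) (hq : q.Prime) (hpq : p < q) (hpa : p ∣ a) (hqa : q ∣ a) : False := by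
  have hpf : Fact p.Prime := ⟨hp⟩
  -- `a ≤ n`
  have han : a ≤ n := by
    obtain ⟨y, hy⟩ := hex
    obtain ⟨g, hg⟩ : ∃ g : G, g ∉ cz y := by
      by_contra hcon
      push Not at hcon
      exact hy (cz_eq_top_iff.1 ((Subgroup.eq_top_iff' _).2 hcon))
    have hgZ : g ∉ center G := fun h1 => hg (center_le_cz y h1)
    have hinf : cz y ⊓ cz g = center G := by
      apply le_antisymm
      · rintro v ⟨hv1, hv2⟩
        by_contra hvZ
        have h1 : y ∈ cz v := by rw [mem_cz]; exact (mem_cz.1 hv1).symm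
        have h2 : g ∈ cz v := by rw [mem_cz]; exact (mem_cz.1 hv2).symm
        exact hg (hAb v hvZ y h1 h2)
      · exact le_inf (center_le_cz y) (center_le_cz g)
    have h1 : (cz y).relIndex (cz g) ≤ (cz y).relIndex ⊤ :=
      Subgroup.relIndex_le_of_le_right le_top (by
        rw [Subgroup.relIndex_top_right]; exact Subgroup.index_ne_zero_of_finite)
    rw [← Subgroup.inf_relIndex_right, hinf, ha g hgZ, Subgroup.relIndex_top_right,
      h.index_eq (mem_top _) hy] at h1
    exact h1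
  have hother : ∀ r : ℕ, ∃ t : ℕ, t.Prime ∧ t ≠ r ∧ t ∣ a := by
    intro r
    by_cases hrp : r = p
    · exact ⟨q, hq, by rw [hrp]; exact hpq.ne', hqa⟩
    · exact ⟨p, hp, Ne.symm hrp, hpa⟩
  have hsq : Squarefree n := by
    rw [Nat.squarefree_iff_prime_squarefree]
    intro r hr hrr
    obtain ⟨-, -, -, -, -, -, -, h1⟩ := sylow_step h hex hAb hr ha (hother r)
      ((dvd_mul_right r r).trans hrr)
    exact h1 hrr
  have hna : n ∣ a := by
    rw [← Nat.prod_primeFactors_of_squarefree hsq]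
    refine Finset.prod_primes_dvd a (fun r hr => (Nat.prime_of_mem_primeFactors hr).prime) ?_
    intro r hr
    obtain ⟨y, g, hyZ, ⟨k, hk⟩, -⟩ := sylow_step h hex hAb (Nat.prime_of_mem_primeFactors hr)
      ha (hother r) (Nat.dvd_of_mem_primeFactors hr)
    have := dvd_relIndex_center (Nat.prime_of_mem_primeFactors hr) (self_mem_cz y) hyZ hk
    rwa [ha y hyZ] at this
  have ha0 : a ≠ 0 := by
    obtain ⟨y, hy⟩ := hex
    rw [← ha y hy]
    exact Subgroup.index_ne_zero_of_finite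
  have hna' : n = a := le_antisymm (Nat.le_of_dvd (Nat.pos_of_ne_zero ha0) hna) han
  obtain ⟨y, g, hyZ, hyo, ⟨k, hgk⟩, hgC, hgN, -⟩ := sylow_step h hex hAb hq ha (hother q)
    (by rw [hna']; exact hqa)
  obtain ⟨w, hwy, hwZ, hwp, l, hl⟩ := exists_of_dvd_relIndex_center hp
    (K := cz y) (by rw [ha y hyZ]; exact hpa)
  have hC : ∀ x ∈ cz y, ∀ w ∈ cz y, x * w = w * x := fun x hx w hw =>
    mem_cz.1 (hAb y hyZ w hw hx)
  -- the elements of order `p` modulo the center
  let K : Subgroup G :=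
    { carrier := {v | v ∈ cz y ∧ v ^ p ∈ center G}
      one_mem' := ⟨one_mem _, by rw [one_pow]; exact one_mem _⟩
      mul_mem' := by
        rintro u v ⟨hu, hu'⟩ ⟨hv, hv'⟩
        refine ⟨mul_mem hu hv, ?_⟩
        rw [(show Commute u v from hC u hu v hv).mul_pow]
        exact mul_mem hu' hv'
      inv_mem' := by
        rintro u ⟨hu, hu'⟩
        refine ⟨inv_mem hu, ?_⟩
        rw [inv_pow]
        exact inv_mem hu' }
  have hKZ : center G ≤ K := fun z hz => ⟨center_le_cz y hz, pow_mem hz p⟩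
  have hKC : K ≤ cz y := fun v hv => hv.1
  let π := QuotientGroup.mk' (center G)
  have hKpi : IsPGroup p (K.map π) := by
    rintro ⟨_, v, hv, rfl⟩
    refine ⟨1, ?_⟩
    apply Subtype.ext
    rw [pow_one, SubmonoidClass.coe_pow, OneMemClass.coe_one]
    change (π v) ^ p = 1
    rw [← map_pow]
    exact (QuotientGroup.eq_one_iff _).2 hv.2
  have hcardK : Nat.card (K.map π) ∣ a := by
    have h1 : Nat.card (K.map π) ∣ Nat.card ((cz y).map π) :=
      Subgroup.card_dvd_of_le (Subgroup.map_mono hKC)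
    have h2 : Nat.card ((cz y).map π) = a := by
      have h3 := Subgroup.relIndex_ker (cz y) π
      rw [QuotientGroup.ker_mk', ha y hyZ] at h3
      exact h3.symm
    rwa [h2] at h1
  obtain ⟨j, hj⟩ := IsPGroup.iff_card.1 hKpi
  have hcardK' : Nat.card (K.map π) < q := by
    have hj1 : j ≤ 1 := by
      by_contra hcon
      push Not at hcon
      have h1 : p * p ∣ n := by
        rw [hna', ← pow_two]
        refine (pow_dvd_pow p hcon).trans ?_
        rw [← hj]
        exact hcardK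
      exact (Nat.squarefree_iff_prime_squarefree.1 hsq p hp) h1
    rw [hj]
    calc p ^ j ≤ p ^ 1 := Nat.pow_le_pow_right hp.pos hj1
      _ = p := pow_one p
      _ < q := hpq
  have hgK : π g ∈ normalizer (K.map π : Set (G ⧸ center G)) := by
    have key : ∀ g ∈ normalizer (cz y : Set G), ∀ x ∈ K.map π, π g * x * (π g)⁻¹ ∈ K.map π := by
      rintro g hg _ ⟨v, hv, rfl⟩
      refine ⟨g * v * g⁻¹, ⟨((mem_normalizer_iff.1 hg) v).1 hv.1, ?_⟩, ?_⟩
      · rw [conj_pow, mem_center_iff.1 hv.2 g, mul_inv_cancel_right]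
        exact hv.2
      · rw [map_mul, map_mul, map_inv]
    refine mem_normalizer_of (key g hgN) fun x hx => ?_
    have := key g⁻¹ (inv_mem hgN) x hx
    rwa [map_inv, inv_inv] at this
  have hcomm := commute_of_card_lt hq hgK (k := k) (by rw [← map_pow, hgk, map_one]) hcardK'
    (π w) (Subgroup.mem_map_of_mem π ⟨hwy, hwp⟩)
  have hz : ⁅g, w⁆ ∈ center G := by
    rw [← QuotientGroup.eq_one_iff]
    change π ⁅g, w⁆ = 1
    rw [map_commutatorElement, commutatorElement_eq_one_iff_mul_comm]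
    exact hcomm
  have h1 : ⁅g, w⁆ ^ q ^ k = 1 := theta_pow' hz (by rw [hgk]; exact one_mem _)
  have h2 : ⁅g, w⁆ ^ p ^ l = 1 := theta_pow hz (by rw [← hl, pow_orderOf_eq_one]; exact one_mem _)
  have h3 : ⁅g, w⁆ = 1 := by
    rw [← orderOf_eq_one_iff]
    refine Nat.eq_one_of_dvd_coprimes ?_ (orderOf_dvd_of_pow_eq_one h1) (orderOf_dvd_of_pow_eq_one h2)
    exact Nat.Coprime.pow _ _ ((Nat.coprime_primes hq hp).2 hpq.ne')
  apply hgC
  have h4 : cz y = cz w := h.eq_of_le (mem_top _) hyZ (mem_top _) hwZ (hAb y hyZ w hwy)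
  rw [h4, mem_cz]
  exact commutatorElement_eq_one_iff_mul_comm.1 h3

end Cfsg.Agent.H683.TwoSize
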